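import Mathlib

set_option autoImplicit false

/-!
# Element orders of Frobenius-type semidirect products `V ⋊ C`
-/

namespace Cfsg.Agent.Lib.Helper57

/-- In `N ⋊ C` with `N` commutative, an element `(n, c)` such that `c` has no nontrivial fixed point on `N` has
the same order as `c`. -/
theorem orderOf_semidirect_of_fpf {N C : Type*} [CommGroup N] [Group C] (φ : C →* MulAut N)
    (x : N ⋊[φ] C) (hfpf : ∀ n : N, φ x.right n = n → n = 1) : orderOf x = orderOf x.right := by
  apply Nat.dvd_antisymm
  · apply orderOf_dvd_of_pow_eq_one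
    set k := orderOf x.right with hk
    set y := x ^ k with hy
    have hyr : y.right = 1 := by
      have : y.right = x.right ^ k := by
        rw [hy]; exact map_pow (SemidirectProduct.rightHom : N ⋊[φ] C →* C) x k
      rw [this, hk, pow_orderOf_eq_one]
    have hcomm : y * x = x * y := by
      rw [hy, ← pow_succ, ← pow_succ']
    have hl := congrArg SemidirectProduct.left hcomm
    rw [SemidirectProduct.mul_left, SemidirectProduct.mul_left, hyr, map_one, MulAut.one_apply,
      mul_comm] at hl
    have hfix : φ x.right y.left = y.left := (mul_left_cancel hl).symm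
    have hyl : y.left = 1 := hfpf _ hfix
    exact SemidirectProduct.ext hyl hyr
  · exact orderOf_map_dvd (SemidirectProduct.rightHom : N ⋊[φ] C →* C) x

/-- The spectrum of a Frobenius-type semidirect product with kernel of prime exponent `p`. -/
theorem mem_range_orderOf_semidirect_iff {N C : Type*} [CommGroup N] [Group C] (φ : C →* MulAut N)
    {p : ℕ} (hp : p.Prime) (hexp : ∀ n : N, n ^ p = 1) (hnt : ∃ n : N, n ≠ 1)
    (hfpf : ∀ c : C, c ≠ 1 → ∀ n : N, φ c n = n → n = 1) (m : ℕ) :
    m ∈ Set.range (orderOf : N ⋊[φ] C → ℕ) ↔ m = p ∨ m ∈ Set.range (orderOf : C → ℕ) := by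
  constructor
  · rintro ⟨x, rfl⟩
    by_cases hx : x.right = 1
    · have hx' : x = SemidirectProduct.inl x.left := by
        apply SemidirectProduct.ext
        · simp
        · simp [hx]
      have ho : orderOf x = orderOf x.left := by
        conv_lhs => rw [hx']
        exact orderOf_injective _ SemidirectProduct.inl_injective _
      have hd : orderOf x.left ∣ p := orderOf_dvd_of_pow_eq_one (hexp _)
      rcases (Nat.dvd_prime hp).mp hd with h | h
      · right; exact ⟨1, by rw [ho, h, orderOf_one]⟩
      · left; rw [ho, h]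
    · right
      exact ⟨x.right, (orderOf_semidirect_of_fpf φ x (hfpf _ hx)).symm⟩
  · rintro (rfl | ⟨c, rfl⟩)
    · obtain ⟨n, hn⟩ := hnt
      refine ⟨SemidirectProduct.inl n, ?_⟩
      show orderOf (SemidirectProduct.inl n : N ⋊[φ] C) = m
      rw [orderOf_injective _ SemidirectProduct.inl_injective]
      have hd : orderOf n ∣ m := orderOf_dvd_of_pow_eq_one (hexp _)
      rcases (Nat.dvd_prime hp).mp hd with h | h
      · exact absurd (orderOf_eq_one_iff.mp h) hn
      · exact h
    · exact ⟨SemidirectProduct.inr c, orderOf_injective _ SemidirectProduct.inr_injective c⟩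

/-- A semidirect product of solvable groups is solvable. -/
theorem isSolvable_semidirect {N C : Type*} [Group N] [Group C] (φ : C →* MulAut N)
    [Group.IsSolvable N] [Group.IsSolvable C] : Group.IsSolvable (N ⋊[φ] C) :=
  Group.isSolvable_of_ker_le_range (SemidirectProduct.inl : N →* N ⋊[φ] C)
    (SemidirectProduct.rightHom : N ⋊[φ] C →* C) (by rw [SemidirectProduct.range_inl_eq_ker_rightHom])

/-- The homomorphism `C →* MulAut (Multiplicative V)` attached to a distributive action. -/
def actHom (C V : Type*) [Group C] [AddCommGroup V] [DistribMulAction C V] :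
    C →* MulAut (Multiplicative V) where
  toFun c :=
    { toFun := fun x => Multiplicative.ofAdd (c • x.toAdd)
      invFun := fun x => Multiplicative.ofAdd (c⁻¹ • x.toAdd)
      left_inv := fun x => by simp
      right_inv := fun x => by simp
      map_mul' := fun x y => by simp [smul_add] }
  map_one' := by ext x; simp
  map_mul' c d := by ext x; simp [mul_smul]

@[simp] theorem actHom_apply (C V : Type*) [Group C] [AddCommGroup V] [DistribMulAction C V] (c : C)
    (x : Multiplicative V) : actHom C V c x = Multiplicative.ofAdd (c • x.toAdd) := rfl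

/-- The element orders of a finite cyclic group are the divisors of its order. -/
theorem mem_range_orderOf_of_isCyclic {C : Type*} [Group C] [Finite C] [IsCyclic C] (m : ℕ) :
    m ∈ Set.range (orderOf : C → ℕ) ↔ m ∣ Nat.card C := by
  constructor
  · rintro ⟨g, rfl⟩
    exact orderOf_dvd_natCard g
  · rintro ⟨k, hk⟩
    obtain ⟨g, hg⟩ := IsCyclic.exists_ofOrder_eq_natCard (α := C)
    have hk0 : k ≠ 0 := by
      rintro rfl
      rw [mul_zero] at hk
      exact Nat.card_pos.ne' hk
    refine ⟨g ^ k, ?_⟩
    show orderOf (g ^ k) = m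
    rw [orderOf_pow_of_dvd hk0 (by rw [hg, hk]; exact Dvd.intro_left m rfl), hg, hk]
    exact Nat.mul_div_cancel _ (Nat.pos_of_ne_zero hk0)

/-- In a finite cyclic group there is a subgroup of every order dividing the group order. -/
theorem exists_subgroup_card_of_isCyclic {C : Type*} [Group C] [Finite C] [IsCyclic C] {a : ℕ}
    (ha : a ∣ Nat.card C) : ∃ D : Subgroup C, Nat.card D = a := by
  obtain ⟨g, hg⟩ := (mem_range_orderOf_of_isCyclic (C := C) a).mpr ha
  exact ⟨Subgroup.zpowers g, by rw [Nat.card_zpowers]; exact hg⟩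

/-- **One-dimensional affine Frobenius groups.** For a finite field `K` of characteristic `p` and `a ∣ |K| - 1`,
there is a finite solvable group whose element orders are `p` and the divisors of `a`. -/
theorem exists_solvable_spec_field.{u} (K : Type u) [Field K] [Finite K] (p : ℕ) [hp : Fact p.Prime] [CharP K p]
    {a : ℕ} (ha : a ∣ Nat.card K - 1) :
    ∃ (X : Type u) (_ : Group X) (_ : Finite X), Group.IsSolvable X ∧
      ∀ m, m ∈ Set.range (orderOf : X → ℕ) ↔ (m ∣ p ∨ m ∣ a) := by
  classical
  have : Fintype K := Fintype.ofFinite K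
  have hcardU : Nat.card Kˣ = Nat.card K - 1 := by
    rw [Nat.card_eq_fintype_card, Nat.card_eq_fintype_card, Fintype.card_units]
  obtain ⟨C, hC⟩ := exists_subgroup_card_of_isCyclic (C := Kˣ) (hcardU ▸ ha)
  refine ⟨Multiplicative K ⋊[actHom C K] C, inferInstance,
    Finite.of_equiv _ (SemidirectProduct.equivProd).symm, isSolvable_semidirect _, ?_⟩
  intro m
  rw [mem_range_orderOf_semidirect_iff (actHom C K) hp.out ?_ ?_ ?_, mem_range_orderOf_of_isCyclic, hC]
  · constructor
    · rintro (rfl | h)
      · left; exact dvd_rfl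
      · right; exact h
    · rintro (h | h)
      · rcases (Nat.dvd_prime hp.out).mp h with rfl | rfl
        · right; exact one_dvd _
        · left; rfl
      · right; exact h
  · intro n
    apply Multiplicative.toAdd.injective
    rw [toAdd_pow, toAdd_one, nsmul_eq_mul, CharP.cast_eq_zero, zero_mul]
  · exact ⟨Multiplicative.ofAdd 1, fun h => one_ne_zero (α := K) (Multiplicative.ofAdd.injective h)⟩
  · intro c hc n hn
    rw [actHom_apply] at hn
    have h1 : ((c : Kˣ) : K) * n.toAdd = n.toAdd := congrArg Multiplicative.toAdd hn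
    have h2 : (((c : Kˣ) : K) - 1) * n.toAdd = 0 := by rw [sub_mul, h1, one_mul, sub_self]
    rcases mul_eq_zero.mp h2 with h3 | h3
    · exfalso
      apply hc
      apply Subtype.ext
      apply Units.ext
      simpa using sub_eq_zero.mp h3
    · exact Multiplicative.toAdd.injective h3

/-- Any finite group has a copy in `Type`. -/
theorem exists_type_copy (H : Type*) [Group H] [Finite H] :
    ∃ (H' : Type) (_ : Group H') (_ : Finite H'), Nonempty (H' ≃* H) := by
  have hsmall : Small.{0} H := ⟨⟨Fin (Nat.card H), ⟨Finite.equivFin H⟩⟩⟩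
  let e' : Shrink.{0} H ≃* H := Shrink.mulEquiv
  exact ⟨Shrink.{0} H, inferInstance, Finite.of_equiv _ e'.symm.toEquiv, ⟨e'⟩⟩

theorem range_orderOf_congr {H H' : Type*} [Group H] [Group H'] (e : H' ≃* H) :
    Set.range (orderOf : H' → ℕ) = Set.range (orderOf : H → ℕ) := by
  ext n
  constructor
  · rintro ⟨x, rfl⟩
    exact ⟨e x, MulEquiv.orderOf_eq e x⟩
  · rintro ⟨x, rfl⟩
    exact ⟨e.symm x, MulEquiv.orderOf_eq e.symm x⟩

end Cfsg.Agent.Lib.Helper57
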