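import Mathlib
import Cfsg.Prelude.Def_ClassicalGeometry

/-! Tools for identifying small classical groups with symmetric groups:
transport of isometry groups along a field isomorphism, and a criterion
`G ≃* Perm (Fin n)` from a relation between `G` and `Perm (Fin n)`. -/

set_option autoImplicit false

namespace Cfsg.Agent.Lib.Helper57

open Matrix

section transport

variable {ι : Type} [Fintype ι] [DecidableEq ι] {F K : Type*} [Field F] [Field K]

/-- `GL ι F ≃* GL ι K` induced by a field isomorphism. -/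
def glMapEquiv (e : F ≃+* K) : GL ι F ≃* GL ι K :=
  Units.mapEquiv (RingEquiv.mapMatrix e (m := ι)).toMulEquiv

theorem glMapEquiv_coe (e : F ≃+* K) (g : GL ι F) :
    ((glMapEquiv e g : GL ι K) : Matrix ι ι K) = (g : Matrix ι ι F).map e := rfl

theorem map_mulVec_comp (e : F ≃+* K) (A : Matrix ι ι F) (v : ι → F) :
    (A.map e) *ᵥ (e ∘ v) = e ∘ (A *ᵥ v) := by
  funext i
  simp [Matrix.mulVec, dotProduct, map_sum]

theorem glMapEquiv_mem_iff (e : F ≃+* K) (Q : (ι → F) → F) (Q' : (ι → K) → K)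
    (h : ∀ v, e (Q v) = Q' (e ∘ v)) (g : GL ι F) :
    glMapEquiv e g ∈ Cfsg.isometryGroup K Q' ↔ g ∈ Cfsg.isometryGroup F Q := by
  constructor
  · intro hg u _
    have := hg (e ∘ u) (e ∘ u)
    simp only [Units.coeHom_apply, glMapEquiv_coe, map_mulVec_comp, ← h] at this
    exact e.injective this
  · intro hg u _
    have hu : u = e ∘ (e.symm ∘ u) := by funext i; simp
    have := hg (e.symm ∘ u) (e.symm ∘ u)
    simp only [Units.coeHom_apply] at this ⊢
    rw [hu, glMapEquiv_coe, map_mulVec_comp, ← h, ← h, this]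

/-- Transport of isometry groups along a field isomorphism. -/
def isometryGroupCongr (e : F ≃+* K) (Q : (ι → F) → F) (Q' : (ι → K) → K)
    (h : ∀ v, e (Q v) = Q' (e ∘ v)) : ↥(Cfsg.isometryGroup F Q) ≃* ↥(Cfsg.isometryGroup K Q') where
  toFun g := ⟨glMapEquiv e g.1, (glMapEquiv_mem_iff e Q Q' h g.1).2 g.2⟩
  invFun g := ⟨(glMapEquiv e).symm g.1, by
    rw [← glMapEquiv_mem_iff e Q Q' h]; simp⟩
  left_inv g := by simp
  right_inv g := by simp
  map_mul' a b := by ext1; simp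

end transport

section rel

variable {G : Type*} [Group G]

theorem exists_rel_of_closure {X : Type*} [Group X] (R : G → X → Prop) (S : Set G)
    (hS : Subgroup.closure S = ⊤) (h1 : R 1 1)
    (hmul : ∀ g g' σ σ', R g σ → R g' σ' → R (g * g') (σ * σ'))
    (hinv : ∀ g σ, R g σ → R g⁻¹ σ⁻¹) (hgen : ∀ s ∈ S, ∃ σ, R s σ) (g : G) : ∃ σ, R g σ := by
  have hg : g ∈ Subgroup.closure S := by rw [hS]; trivial
  induction hg using Subgroup.closure_induction with
  | mem x hx => exact hgen x hx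
  | one => exact ⟨1, h1⟩
  | mul x y _ _ hx hy =>
    obtain ⟨σ, hσ⟩ := hx
    obtain ⟨τ, hτ⟩ := hy
    exact ⟨σ * τ, hmul _ _ _ _ hσ hτ⟩
  | inv x _ hx =>
    obtain ⟨σ, hσ⟩ := hx
    exact ⟨σ⁻¹, hinv _ _ hσ⟩

theorem nonempty_mulEquiv_perm_of_rel {n : ℕ} (R : G → Equiv.Perm (Fin n) → Prop)
    (hex : ∀ g, ∃ σ, R g σ)
    (hmul : ∀ g g' σ σ', R g σ → R g' σ' → R (g * g') (σ * σ'))
    (huniq : ∀ g σ σ', R g σ → R g σ' → σ = σ')
    (hinj : ∀ g, R g 1 → g = 1)
    (hswap : ∀ a b, a ≠ b → ∃ g, R g (Equiv.swap a b)) : Nonempty (G ≃* Equiv.Perm (Fin n)) := by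
  classical
  choose φ hφ using hex
  let f : G →* Equiv.Perm (Fin n) :=
    MonoidHom.mk' φ (fun a b => huniq _ _ _ (hφ (a * b)) (hmul _ _ _ _ (hφ a) (hφ b)))
  have hf : ∀ g, f g = φ g := fun g => rfl
  have hfinj : Function.Injective f := by
    rw [injective_iff_map_eq_one]
    intro g hg
    apply hinj
    rw [← hg, hf]; exact hφ g
  have hfsurj : Function.Surjective f := by
    rw [← MonoidHom.range_eq_top, eq_top_iff, ← Equiv.Perm.closure_isSwap, Subgroup.closure_le]
    rintro σ ⟨a, b, hab, rfl⟩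
    obtain ⟨g, hg⟩ := hswap a b hab
    exact ⟨g, huniq _ _ _ (hφ g) hg⟩
  exact ⟨MulEquiv.ofBijective f ⟨hfinj, hfsurj⟩⟩

end rel

end Cfsg.Agent.Lib.Helper57
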