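import Mathlib
import Cfsg.Prelude.Def_SporadicB
import Cfsg.Agent.Lib.Helper44.Criterion
import Cfsg.Agent.Lib.Helper44.StdForms
import Cfsg.Agent.Lib.Helper44.Transport

/-! Orthogonal transvections over the field with two elements form a class of 3-transpositions. -/

set_option autoImplicit false

namespace Cfsg.Agent.Lib.Helper57

open Cfsg Cfsg.Agent.Lib.Helper44 QuadraticMap Module Matrix

section abstract

variable {V : Type*} [AddCommGroup V] [Module (ZMod 2) V]

theorem zmod2_cases (a : ZMod 2) : a = 0 ∨ a = 1 := by revert a; decide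

theorem refl2_apply (Q : QuadraticForm (ZMod 2) V) {v : V} (hv : Q v = 1) (x : V) :
    refl Q v x = x + polar Q v x • v := by
  rw [refl_apply, hv, inv_one, one_mul, sub_eq_add_neg, ← neg_smul]
  congr 2
  generalize polar Q v x = c
  revert c; decide

theorem refl2_prod (Q : QuadraticForm (ZMod 2) V) {v w : V} (hv : Q v = 1) (hw : Q w = 1) :
    (refl Q v * refl Q w) ^ 2 = 1 ∨ (refl Q v * refl Q w) ^ 3 = 1 := by
  have c1 : refl Q v * refl Q w * refl Q v = refl Q (refl Q v w) := by
    have := conj_refl (refl_mem Q v) w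
    rwa [refl_inv] at this
  have c2 : refl Q w * refl Q v * refl Q w = refl Q (refl Q w v) := by
    have := conj_refl (refl_mem Q w) v
    rwa [refl_inv] at this
  rcases zmod2_cases (polar Q v w) with h | h
  · left
    have h1 : refl Q v w = w := refl_apply_of_polar_eq_zero Q h
    rw [h1] at c1
    rw [pow_two, ← mul_assoc, c1, refl_mul_self]
  · right
    have h1 : refl Q v w = w + v := by rw [refl2_apply Q hv, h, one_smul]
    have h2 : refl Q w v = w + v := by
      rw [refl2_apply Q hw, polar_comm, h, one_smul, add_comm]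
    rw [h1] at c1
    rw [h2] at c2
    have : (refl Q v * refl Q w) ^ 3
        = (refl Q v * refl Q w * refl Q v) * (refl Q w * refl Q v * refl Q w) := by
      simp only [pow_succ, pow_zero, one_mul, mul_assoc]
    rw [this, c1, c2, refl_mul_self]

/-- an isometry moving every vector by a multiple of `a` is the transvection in `a`. -/
theorem eq_refl_of_rank_one {Q : QuadraticForm (ZMod 2) V} (hQ : (polarBilin Q).Nondegenerate)
    {g : V ≃ₗ[ZMod 2] V} (hg : g ∈ OQ Q) (hg1 : g ≠ 1) {a : V}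
    (h : ∀ x, g x = x ∨ g x = x + a) : Q a = 1 ∧ g = refl Q a := by
  obtain ⟨x0, hx0⟩ : ∃ x, g x ≠ x := by
    by_contra hcon
    push Not at hcon
    apply hg1
    ext x
    exact hcon x
  have hx0a : g x0 = x0 + a := (h x0).resolve_left hx0
  have ha0 : a ≠ 0 := by
    rintro rfl
    apply hx0; rw [hx0a, add_zero]
  -- moved vectors
  have hmoved : ∀ x, g x = x + a → polar Q x a = Q a := by
    intro x hx
    have h1 := mem_OQ.1 hg x
    rw [hx, QuadraticMap.map_add (⇑Q)] at h1
    have h2 : Q a + polar Q x a = 0 := by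
      have : Q x + Q a + polar Q x a = Q x + (Q a + polar Q x a) := by ring
      rw [this] at h1
      simpa using h1
    generalize polar Q x a = c at h2
    generalize Q a = d at h2
    revert c d; decide
  have hfixed : ∀ x, g x = x → polar Q x a = 0 := by
    intro x hx
    have h1 : g (x + x0) = (x + x0) + a := by rw [map_add, hx, hx0a, add_assoc]
    have h2 := hmoved _ h1
    rw [polar_add_left, hmoved x0 hx0a] at h2
    simpa using h2
  have hQa : Q a = 1 := by
    rcases zmod2_cases (Q a) with h0 | h1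
    · exfalso
      obtain ⟨y, hy⟩ := polar_nondeg_exists hQ ha0
      rcases h y with h' | h'
      · rw [hfixed y h'] at hy; exact zero_ne_one hy
      · rw [hmoved y h', h0] at hy; exact zero_ne_one hy
    · exact h1
  refine ⟨hQa, ?_⟩
  ext x
  rw [refl2_apply Q hQa, polar_comm]
  rcases h x with h' | h'
  · rw [hfixed x h', zero_smul, add_zero, h']
  · rw [hmoved x h', hQa, one_smul, h']

end abstract

section matrix

variable {ι : Type} [Fintype ι] [DecidableEq ι]

theorem range_sub_one_reflElt (Q : QuadraticForm (ZMod 2) (ι → ZMod 2))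
    (hQ : (polarBilin Q).Nondegenerate) {v : ι → ZMod 2} (hv : Q v = 1) :
    LinearMap.range ((((reflElt Q v : GL ι (ZMod 2)) : Matrix ι ι (ZMod 2)) - 1).mulVecLin)
      = Submodule.span (ZMod 2) {v} := by
  have hv0 : v ≠ 0 := by
    rintro rfl
    rw [QuadraticMap.map_zero] at hv
    exact zero_ne_one hv
  have key : ∀ x, (((reflElt Q v : GL ι (ZMod 2)) : Matrix ι ι (ZMod 2)) - 1) *ᵥ x
      = polar Q v x • v := by
    intro x
    rw [reflElt_coe, Matrix.sub_mulVec, Matrix.one_mulVec, reflectionMatrix_mulVec,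
      refl2_apply Q hv]
    abel
  apply le_antisymm
  · rintro _ ⟨x, rfl⟩
    rw [Matrix.mulVecLin_apply, key]
    exact Submodule.smul_mem _ _ (Submodule.mem_span_singleton_self v)
  · rw [Submodule.span_singleton_le_iff_mem]
    obtain ⟨y, hy⟩ := polar_nondeg_exists hQ hv0
    refine ⟨y, ?_⟩
    rw [Matrix.mulVecLin_apply, key, polar_comm, hy, one_smul]

theorem rank_sub_one_reflElt (Q : QuadraticForm (ZMod 2) (ι → ZMod 2))
    (hQ : (polarBilin Q).Nondegenerate) {v : ι → ZMod 2} (hv : Q v = 1) :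
    (((reflElt Q v : GL ι (ZMod 2)) : Matrix ι ι (ZMod 2)) - 1).rank = 1 := by
  have hv0 : v ≠ 0 := by
    rintro rfl
    rw [QuadraticMap.map_zero] at hv
    exact zero_ne_one hv
  rw [Matrix.rank, range_sub_one_reflElt Q hQ hv, finrank_span_singleton hv0]

theorem eq_reflElt_of_rank (Q : QuadraticForm (ZMod 2) (ι → ZMod 2))
    (hQ : (polarBilin Q).Nondegenerate) (g : ↥(Cfsg.isometryGroup (ZMod 2) ⇑Q))
    (hg : (((g : GL ι (ZMod 2)) : Matrix ι ι (ZMod 2)) - 1).rank = 1) :
    ∃ a, Q a = 1 ∧ g = reflElt Q a := by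
  rw [Matrix.rank, finrank_eq_one_iff'] at hg
  obtain ⟨⟨a, ha⟩, ha0, hall⟩ := hg
  have h1 : ∀ x, (isoEquiv Q g : (ι → ZMod 2) ≃ₗ[ZMod 2] (ι → ZMod 2)) x = x ∨
      (isoEquiv Q g : (ι → ZMod 2) ≃ₗ[ZMod 2] (ι → ZMod 2)) x = x + a := by
    intro x
    obtain ⟨c, hc⟩ := hall ⟨_, LinearMap.mem_range_self _ x⟩
    have hc' : c • a = (((g : GL ι (ZMod 2)) : Matrix ι ι (ZMod 2)) - 1) *ᵥ x :=
      congrArg Subtype.val hc
    rw [Matrix.sub_mulVec, Matrix.one_mulVec, ← isoEquiv_apply] at hc'
    rcases zmod2_cases c with rfl | rfl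
    · left
      rw [zero_smul] at hc'
      exact (sub_eq_zero.1 hc'.symm)
    · right
      rw [one_smul] at hc'
      rw [hc']; abel
  have hne : (isoEquiv Q g : (ι → ZMod 2) ≃ₗ[ZMod 2] (ι → ZMod 2)) ≠ 1 := by
    intro h
    apply ha0
    obtain ⟨x, hx⟩ := ha
    apply Subtype.ext
    show a = 0
    rw [← hx, Matrix.mulVecLin_apply, Matrix.sub_mulVec, Matrix.one_mulVec, ← isoEquiv_apply, h]
    simp
  obtain ⟨hQa, hga⟩ := eq_refl_of_rank_one hQ (isoEquiv Q g).2 hne h1
  refine ⟨a, hQa, ?_⟩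
  apply (isoEquiv Q).injective
  rw [isoEquiv_reflElt]
  exact Subtype.ext hga

theorem transvSet_eq (Q : QuadraticForm (ZMod 2) (ι → ZMod 2))
    (hQ : (polarBilin Q).Nondegenerate) :
    {g : ↥(Cfsg.isometryGroup (ZMod 2) ⇑Q) |
        (((g : GL ι (ZMod 2)) : Matrix ι ι (ZMod 2)) - 1).rank = 1}
      = {g | ∃ a, Q a = 1 ∧ g = reflElt Q a} := by
  ext g
  constructor
  · intro hg; exact eq_reflElt_of_rank Q hQ g hg
  · rintro ⟨a, ha, rfl⟩; exact rank_sub_one_reflElt Q hQ ha

theorem reflElt_mul_self (Q : QuadraticForm (ZMod 2) (ι → ZMod 2)) (v : ι → ZMod 2) :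
    reflElt Q v * reflElt Q v = 1 := by
  apply (isoEquiv Q).injective
  rw [map_mul, isoEquiv_reflElt, map_one]
  exact Subtype.ext (refl_mul_self Q v)

/-- Orthogonal transvections over the field with two elements: a class of 3-transpositions. -/
theorem isThreeTranspositionClass_orth (Q : QuadraticForm (ZMod 2) (ι → ZMod 2))
    (hQ : (polarBilin Q).Nondegenerate) (h4 : Fintype.card ι ≠ 4) (hex : ∃ v, Q v = 1) :
    Cfsg.IsThreeTranspositionClass {g : ↥(Cfsg.isometryGroup (ZMod 2) ⇑Q) |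
        (((g : GL ι (ZMod 2)) : Matrix ι ι (ZMod 2)) - 1).rank = 1} := by
  refine ⟨⟨?_, ?_⟩, ?_, ?_⟩
  · intro d hd
    have hd1 : d ≠ 1 := by
      rintro rfl
      simp at hd
    rw [transvSet_eq Q hQ] at hd
    obtain ⟨a, ha, rfl⟩ := hd
    apply orderOf_eq_prime
    · rw [pow_two]; exact reflElt_mul_self Q a
    · exact hd1
  · rw [transvSet_eq Q hQ]
    rintro _ ⟨a, ha, rfl⟩ _ ⟨b, hb, rfl⟩
    rcases refl2_prod Q ha hb with h | h
    · left
      apply (isoEquiv Q).injective
      rw [map_pow, map_mul, isoEquiv_reflElt, isoEquiv_reflElt, map_one]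
      exact Subtype.ext h
    · right
      apply (isoEquiv Q).injective
      rw [map_pow, map_mul, isoEquiv_reflElt, isoEquiv_reflElt, map_one]
      exact Subtype.ext h
  · rw [transvSet_eq Q hQ]
    obtain ⟨v, hv⟩ := hex
    refine ⟨reflElt Q v, ⟨v, hv, rfl⟩, ?_⟩
    ext g
    show _ ↔ IsConj (reflElt Q v) g
    rw [isConj_iff]
    constructor
    · rintro ⟨a, ha, rfl⟩
      obtain ⟨c, hc, hca⟩ := exists_conj_refl hQ (u := v) (w := a) (by rw [hv]; exact one_ne_zero)
        (by rw [ha]; exact one_ne_zero) ⟨1, by rw [hv, ha]⟩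
      refine ⟨(isoEquiv Q).symm ⟨c, hc⟩, ?_⟩
      apply (isoEquiv Q).injective
      rw [map_mul, map_mul, map_inv, isoEquiv_reflElt, isoEquiv_reflElt, MulEquiv.apply_symm_apply]
      exact Subtype.ext hca.symm
    · rintro ⟨c, rfl⟩
      refine ⟨(isoEquiv Q c : (ι → ZMod 2) ≃ₗ[ZMod 2] (ι → ZMod 2)) v, ?_, ?_⟩
      · rw [mem_OQ.1 (isoEquiv Q c).2, hv]
      · apply (isoEquiv Q).injective
        rw [map_mul, map_mul, map_inv, isoEquiv_reflElt, isoEquiv_reflElt]
        exact Subtype.ext (conj_refl (isoEquiv Q c).2 v)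
  · rw [transvSet_eq Q hQ, eq_top_iff]
    intro g _
    obtain ⟨l, hl, hg⟩ := exists_list_reflectionMatrix Q hQ (Or.inr h4) g
    rw [eq_prod_reflElt Q g l hg]
    apply Subgroup.list_prod_mem
    intro x hx
    rw [List.mem_map] at hx
    obtain ⟨v, hv, rfl⟩ := hx
    apply Subgroup.subset_closure
    exact ⟨v, (zmod2_cases (Q v)).resolve_left (hl v hv), rfl⟩

end matrix

end Cfsg.Agent.Lib.Helper57
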